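import Mathlib.GroupTheory.Sylow
import Mathlib.GroupTheory.PGroup
import Mathlib.GroupTheory.Index

/-!
The abstract local situation: a finite group `Γ` with Sylow 3-subgroup `T = 3^{1+2}` and two distinguished subgroups
`U1, U2` of order 9.
-/

set_option autoImplicit false
set_option linter.style.longLine false

namespace Cfsg.Agent.H776.Co

/-- `T` is an extraspecial Sylow 3-subgroup of exponent 3 of `Γ` with centre `⟨z⟩`, `U1, U2` two subgroups of order 9 whose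
elements are distinguished from the other elements of `T` ("regular" ones), `Z` a central subgroup of order prime to 3. -/
structure Loc {Γ : Type*} [Group Γ] (T U1 U2 : Subgroup Γ) (z : Γ) (Z : Subgroup Γ) : Prop where
  card_T : Nat.card T = 27
  syl : ¬ 3 ∣ T.index
  exp : ∀ x ∈ T, x ^ 3 = 1
  le1 : U1 ≤ T
  le2 : U2 ≤ T
  card1 : Nat.card U1 = 9
  card2 : Nat.card U2 = 9
  inf : U1 ⊓ U2 = Subgroup.zpowers z
  z_ne : z ≠ 1
  z_comm : ∀ x ∈ T, x * z = z * x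
  center : ∀ x ∈ T, (∀ y ∈ T, x * y = y * x) → x ∈ Subgroup.zpowers z
  /-- conjugation respects the type of elements -/
  type : ∀ g : Γ, ∀ x, x ∈ U1 ∨ x ∈ U2 → g * x * g⁻¹ ∈ T → g * x * g⁻¹ ∈ U1 ∨ g * x * g⁻¹ ∈ U2
  /-- `U1` and `U2` are not conjugate -/
  not_conj : ∀ g : Γ, ∃ x ∈ U1, g * x * g⁻¹ ∉ U2
  /-- `Z` is central of order prime to 3 -/
  Z_le : Z ≤ Subgroup.center Γ
  Z_card : ¬ 3 ∣ Nat.card Z
  /-- 3'-subgroups normalised by `T` lie in `Z` -/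
  sig : ∀ R : Subgroup Γ, (∀ t ∈ T, ∀ r ∈ R, t * r * t⁻¹ ∈ R) → ¬ 3 ∣ Nat.card R → R ≤ Z
  core : ∀ N : Subgroup Γ, N.Normal → IsPGroup 3 N → N = ⊥
  /-- centralizers of elements of `U1 ∪ U2` have a normal Sylow 3-subgroup -/
  tri : ∀ x, x ∈ U1 ∨ x ∈ U2 → x ≠ 1 → ∀ P Q : Subgroup Γ, IsPGroup 3 P → IsPGroup 3 Q →
    P ≤ Subgroup.centralizer {x} → Q ≤ Subgroup.centralizer {x} → IsPGroup 3 ↥(P ⊔ Q)
  /-- centralizers of regular elements have 1 or 4 Sylow 3-subgroups -/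
  reg : ∀ x ∈ T, x ∉ U1 → x ∉ U2 → Nat.card (Sylow 3 (Subgroup.centralizer ({x} : Set Γ))) = 1 ∨
    Nat.card (Sylow 3 (Subgroup.centralizer ({x} : Set Γ))) = 4
  /-- regular elements are conjugate up to inversion -/
  reg_conj : ∀ x ∈ T, x ∉ U1 → x ∉ U2 → ∀ y ∈ T, y ∉ U1 → y ∉ U2 → ∃ g : Γ, g * x * g⁻¹ = y ∨ g * x * g⁻¹ = y⁻¹
  ord : Nat.card Γ ∣ 2 ^ 13 * 3 ^ 3 * 5 * 7 * 11 ^ 2 * 13 ^ 2

end Cfsg.Agent.H776.Co
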