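import Cfsg.Agent.H776.Co.Loc
import Cfsg.Agent.H776.Co.Lin
import Cfsg.Agent.H752.Mp

/-!
Fusion systems on `P`: the linear group `GF F` induced on `A`, normalised systems.
-/

set_option autoImplicit false
set_option linter.style.longLine false

namespace Cfsg.Agent.H776.Co

open Subgroup Cfsg Cfsg.Agent.H752 P

/-- `V → A` -/
def vec (v : Lin.V) : P := ⟨0, 0, 0, v 0, v 1, v 2, v 3, v 4, v 5⟩
/-- `P → V` (the inverse of `vec` on `A`) -/
def crd (x : P) : Lin.V := ![x.m11, x.m12, x.m22, x.m13, x.m23, x.m33]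

theorem vec_mem (v : Lin.V) : vec v ∈ A := ⟨rfl, rfl, rfl⟩

theorem crd_vec (v : Lin.V) : crd (vec v) = v := by
  funext i
  fin_cases i <;> rfl

theorem vec_crd {x : P} (hx : x ∈ A) : vec (crd x) = x := by
  obtain ⟨h1, h2, h3⟩ := hx
  ext <;> simp [vec, crd, h1, h2, h3]

theorem vec_add (u v : Lin.V) : vec (u + v) = vec u * vec v := by
  ext <;> simp [vec]

theorem vec_injective : Function.Injective vec := fun u v h => by rw [← crd_vec u, h, crd_vec]

theorem vec_zero : vec 0 = 1 := by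
  ext <;> simp [vec]

/-- conjugation on `A` -/
theorem conj_vec (x : P) (v : Lin.V) : x * vec v * x⁻¹ = vec (Lin.tf x.a x.b x.c v) := by
  rw [mul_inv_eq_iff_eq_mul]
  ext <;> simp [vec, Lin.tf] <;> ring

/-- a linear map as a map on `A` -/
def lft (g : Lin.L) (x : P) : P := vec (g (crd x))

theorem lft_vec (g : Lin.L) (v : Lin.V) : lft g (vec v) = vec (g v) := by rw [lft, crd_vec]

theorem lft_mem (g : Lin.L) (x : P) : lft g x ∈ A := vec_mem _

theorem lft_mul (g h : Lin.L) (x : P) : lft (g * h) x = lft g (lft h x) := by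
  rw [lft, lft, lft, crd_vec, LinearEquiv.mul_apply]

theorem lft_one {x : P} (hx : x ∈ A) : lft 1 x = x := vec_crd hx

/-- the group `Aut_F(A)`, as a linear group -/
def GF (F : FusionSystem (⊤ : Subgroup P)) : Subgroup Lin.L where
  carrier := {g | Mp F A (lft g)}
  mul_mem' := by
    intro g h hg hh
    exact (Mp.comp hh hg fun x _ => lft_mem h x).congr fun x _ => lft_mul g h x
  one_mem' := (mp_id F le_top).congr fun x hx => lft_one hx
  inv_mem' := by
    intro g hg
    refine Mp.symm (F := F) (P := A) (R := A) (f := lft g) (g := lft g⁻¹) hg fun y hy => ?_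
    refine ⟨lft g⁻¹ y, lft_mem _ _, ?_, rfl⟩
    rw [← lft_mul, mul_inv_cancel, lft_one hy]

theorem mem_GF {F : FusionSystem (⊤ : Subgroup P)} {g : Lin.L} : g ∈ GF F ↔ Mp F A (lft g) := Iff.rfl

/-- normalised: saturated and every element of `Aut_F(P)` is an inner automorphism times a sign automorphism -/
structure Nrm (F : FusionSystem (⊤ : Subgroup P)) : Prop where
  sat : F.IsSaturated 3
  tor : ∀ f, Mp F ⊤ f → ∃ (s : P) (e1 e2 e3 : ZMod 3), e1 ^ 2 = 1 ∧ e2 ^ 2 = 1 ∧ e3 ^ 2 = 1 ∧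
    ∀ x, f x = s * tor e1 e2 e3 x * s⁻¹

end Cfsg.Agent.H776.Co
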